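import Mathlib.GroupTheory.FiniteAbelian.Basic
import Mathlib.GroupTheory.SpecificGroups.Cyclic

/-!
Recognition of homocyclic abelian groups of prime power exponent.
-/

set_option autoImplicit false

namespace Cfsg.Agent.Lib.Chev.Homocyclic

theorem homocyclic {A : Type*} [CommGroup A] [Finite A] {r v a : ℕ} [hr : Fact r.Prime]
    (hexp : ∀ x : A, x ^ (r ^ v) = 1) (hcard : Nat.card A = r ^ (a * v))
    (hom : Nat.card (powMonoidHom (α := A) r).ker ≤ r ^ a) :
    Nonempty (A ≃* (Fin a → Multiplicative (ZMod (r ^ v)))) := by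
  classical
  obtain ⟨ι, hι, n, hn, ⟨φ⟩⟩ := CommGroup.equiv_prod_multiplicative_zmod_of_finite A
  rcases Nat.eq_zero_or_pos v with rfl | hv
  · have h1 : Subsingleton A := (Nat.card_eq_one_iff_unique.1 (by simpa using hcard)).1
    rw [pow_zero]
    exact ⟨{ toFun := fun _ => 1, invFun := fun _ => 1, left_inv := fun _ => Subsingleton.elim _ _
             right_inv := fun _ => funext fun _ => Subsingleton.elim (α := ZMod 1) _ _
             map_mul' := fun _ _ => (mul_one _).symm }⟩
  have : ∀ i, NeZero (n i) := fun i => ⟨by have := hn i; omega⟩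
  have hdvd : ∀ i, ∃ e, 1 ≤ e ∧ e ≤ v ∧ n i = r ^ e := by
    intro i
    have h1 : Pi.mulSingle (M := fun i => Multiplicative (ZMod (n i))) i (Multiplicative.ofAdd 1) ^ (r ^ v) = 1 := by
      apply φ.symm.injective
      rw [map_pow, hexp, map_one]
    have h2 := congrFun h1 i
    rw [Pi.pow_apply, Pi.mulSingle_eq_same, Pi.one_apply, ← ofAdd_nsmul, ofAdd_eq_one, nsmul_eq_mul, mul_one,
      ZMod.natCast_eq_zero_iff] at h2
    obtain ⟨e, he, hne⟩ := (Nat.dvd_prime_pow hr.out).1 h2
    refine ⟨e, Nat.one_le_iff_ne_zero.2 fun h0 => ?_, he, hne⟩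
    have := hn i
    rw [hne, h0, pow_zero] at this
    exact lt_irrefl _ this
  choose e he1 hev hne using hdvd
  have hsum : (∑ i, e i) = a * v := by
    refine Nat.pow_right_injective hr.out.two_le ?_
    show r ^ _ = r ^ _
    rw [← hcard, Nat.card_congr φ.toEquiv, Nat.card_pi, ← Finset.prod_pow_eq_pow_sum]
    exact Finset.prod_congr rfl fun i _ => by
      rw [Nat.card_congr Multiplicative.toAdd, Nat.card_zmod, hne]
  have hι' : Fintype.card ι ≤ a := by
    refine (Nat.pow_le_pow_iff_right hr.out.one_lt).1 (le_trans (le_of_eq ?_) hom)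
    let ψ : (powMonoidHom (α := A) r).ker ≃ ((i : ι) → (powMonoidHom (α := Multiplicative (ZMod (n i))) r).ker) :=
      { toFun := fun x i => ⟨φ x.1 i, by
          have hx : x.1 ^ r = 1 := x.2
          show φ x.1 i ^ r = 1
          rw [← Pi.pow_apply, ← map_pow, hx, map_one, Pi.one_apply]⟩
        invFun := fun y => ⟨φ.symm fun i => (y i).1, by
          show (φ.symm fun i => (y i).1) ^ r = 1
          rw [← map_pow, ← map_one φ.symm]
          exact congrArg _ (funext fun i => (y i).2)⟩
        left_inv := fun x => Subtype.ext (φ.symm_apply_apply x.1)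
        right_inv := fun y => funext fun i => Subtype.ext (congrFun (φ.apply_symm_apply _) i) }
    rw [Nat.card_congr ψ, Nat.card_pi, ← Finset.card_univ, ← Finset.prod_const]
    refine Finset.prod_congr rfl fun i _ => ?_
    rw [IsCyclic.card_powMonoidHom_ker, Nat.card_congr Multiplicative.toAdd, Nat.card_zmod, hne]
    exact (Nat.gcd_eq_right (dvd_pow_self r (by have := he1 i; omega))).symm
  have hle : (∑ i, e i) ≤ Fintype.card ι * v :=
    (Finset.sum_le_card_nsmul _ _ v fun i _ => hev i).trans (le_of_eq (by rw [Finset.card_univ, smul_eq_mul]))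
  have hcι : Fintype.card ι = a := le_antisymm hι' (Nat.le_of_mul_le_mul_right (hsum ▸ hle) hv)
  have heq : ∀ i, e i = v := fun i => by
    by_contra hne'
    have : (∑ i, e i) < ∑ _i : ι, v :=
      Finset.sum_lt_sum (fun j _ => hev j) ⟨i, Finset.mem_univ i, lt_of_le_of_ne (hev i) hne'⟩
    rw [hsum, Finset.sum_const, Finset.card_univ, hcι, smul_eq_mul] at this
    exact lt_irrefl _ this
  have hn' : n = fun _ => r ^ v := funext fun i => by rw [hne, heq]
  subst hn'
  exact ⟨φ.trans
    { toFun := fun f j => f ((Fintype.equivFinOfCardEq hcι).symm j)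
      invFun := fun g i => g (Fintype.equivFinOfCardEq hcι i)
      left_inv := fun f => funext fun i => congrArg f ((Fintype.equivFinOfCardEq hcι).symm_apply_apply i)
      right_inv := fun g => funext fun j => congrArg g ((Fintype.equivFinOfCardEq hcι).apply_symm_apply j)
      map_mul' := fun _ _ => rfl }⟩

end Cfsg.Agent.Lib.Chev.Homocyclic
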