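import Cfsg.Agent.Lib.Chev.CoxTorus.Poly
import Mathlib.LinearAlgebra.Eigenspace.Zero
import Mathlib.LinearAlgebra.Charpoly.ToMatrix

/-!
Eigenspaces modulo a prime of an integer matrix of finite order coprime to the prime.
-/

set_option autoImplicit false

namespace Cfsg.Agent.Lib.Chev.Homocyclic

open Polynomial
open Cfsg.Agent.Lib.Chev.CoxTorus (dvd_prod_cyclotomic exists_factors)

variable {l : ℕ}

/-- The characteristic polynomial is a product of cyclotomic polynomials. -/
theorem exists_multiset {M : Matrix (Fin l) (Fin l) ℤ} {m : ℕ} (hm : 0 < m) (hM : M ^ m = 1) :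
    ∃ s : Multiset ℕ, (∀ e ∈ s, e ∣ m) ∧ M.charpoly = (s.map fun e => cyclotomic e ℤ).prod ∧
      (s.map Nat.totient).sum = l := by
  classical
  have hroot : ∀ f : ℚ[X], f.Monic → Irreducible f → f ∣ (M.map (Int.cast : ℤ → ℚ)).charpoly →
      ∃ e, e ∣ m ∧ f = cyclotomic e ℚ := by
    intro f hf hirr hdvd
    have := Fact.mk hirr
    let K := AdjoinRoot f
    have hμ : ((M.map (Int.cast : ℤ → ℚ)).map (algebraMap ℚ K)).charpoly.IsRoot (AdjoinRoot.root f) := by
      obtain ⟨g, hg⟩ := hdvd
      rw [Matrix.charpoly_map, hg, IsRoot, eval_map, eval₂_mul]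
      rw [show eval₂ (algebraMap ℚ K) (AdjoinRoot.root f) f = 0 from AdjoinRoot.eval₂_root f, zero_mul]
    rw [IsRoot, Matrix.eval_charpoly] at hμ
    obtain ⟨v, hv, hv0⟩ := Matrix.exists_mulVec_eq_zero_iff.2 hμ
    set MK := (M.map (Int.cast : ℤ → ℚ)).map (algebraMap ℚ K) with hMK
    have hev : MK.mulVec v = AdjoinRoot.root f • v := by
      rw [Matrix.sub_mulVec, sub_eq_zero] at hv0
      rw [← hv0]
      funext i
      simp [Matrix.mulVec_diagonal]
    have hpow : MK ^ m = 1 := by
      have h1 : MK = ((algebraMap ℚ K).mapMatrix.comp (Int.castRingHom ℚ).mapMatrix) M := rfl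
      rw [h1, ← map_pow, hM, map_one]
    have h2 := CoxTorus.aeval_mulVec_eigen hev (X ^ m - 1)
    rw [map_sub, map_pow, aeval_X, map_one, hpow, sub_self, Matrix.zero_mulVec] at h2
    have h3 := (smul_eq_zero.1 h2.symm).resolve_right hv
    have h4 : f ∣ X ^ m - 1 := by
      refine AdjoinRoot.mk_eq_zero.1 ?_
      rw [map_sub, map_pow, AdjoinRoot.mk_X, map_one]
      simpa using h3
    rw [← prod_cyclotomic_eq_X_pow_sub_one hm] at h4
    obtain ⟨e, he, hfe⟩ := hirr.prime.exists_mem_finset_dvd h4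
    exact ⟨e, Nat.dvd_of_mem_divisors he, eq_of_monic_of_associated hf (cyclotomic.monic e ℚ)
      (hirr.associated_of_dvd (cyclotomic.irreducible_rat (Nat.pos_of_mem_divisors he)) hfe)⟩
  set P := (M.map (Int.cast : ℤ → ℚ)).charpoly with hP
  have hPm : P.Monic := Matrix.charpoly_monic _
  suffices H : ∃ s : Multiset ℕ, (∀ e ∈ s, e ∣ m) ∧ P = (s.map fun e => cyclotomic e ℚ).prod by
    obtain ⟨s, hs, e⟩ := H
    refine ⟨s, hs, Polynomial.map_injective (Int.castRingHom ℚ) Int.cast_injective ?_, ?_⟩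
    · rw [← Matrix.charpoly_map, Polynomial.map_multiset_prod, Multiset.map_map]
      simpa [Function.comp_def, hP] using e
    · have h := congrArg natDegree e
      rw [hP, Matrix.charpoly_natDegree_eq_dim, Fintype.card_fin, natDegree_multiset_prod_of_monic _ (fun f hf => by
        obtain ⟨k, -, rfl⟩ := Multiset.mem_map.1 hf
        exact cyclotomic.monic k ℚ), Multiset.map_map] at h
      simpa [Function.comp_def, natDegree_cyclotomic] using h.symm
  suffices H : ∀ (n : ℕ) (f : ℚ[X]), f.natDegree = n → f.Monic → f ∣ P →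
      ∃ s : Multiset ℕ, (∀ e ∈ s, e ∣ m) ∧ f = (s.map fun e => cyclotomic e ℚ).prod from H _ P rfl hPm dvd_rfl
  intro n
  induction n using Nat.strong_induction_on with
  | _ n ih =>
  intro f hn hf hfP
  rcases eq_or_ne f 1 with rfl | h1
  · exact ⟨0, by simp, by simp⟩
  obtain ⟨g, hgm, hgi, hgd⟩ := exists_monic_irreducible_factor f fun hu => h1 (hf.eq_one_of_isUnit hu)
  obtain ⟨e, he, rfl⟩ := hroot g hgm hgi (hgd.trans hfP)
  obtain ⟨g', rfl⟩ := hgd
  have hg' : g'.Monic := (cyclotomic.monic e ℚ).of_mul_monic_left hf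
  have hdeg : g'.natDegree < n := by
    rw [← hn, (cyclotomic.monic e ℚ).natDegree_mul hg']
    have := hgi.natDegree_pos
    omega
  obtain ⟨s, hs, e'⟩ := ih _ hdeg g' rfl hg' ((dvd_mul_left _ _).trans hfP)
  exact ⟨e ::ₘ s, by simpa [he] using hs, by rw [Multiset.map_cons, Multiset.prod_cons, ← e']⟩

theorem count_roots_le {K : Type*} [Field K] [DecidableEq K] {d : ℕ} {s : Multiset ℕ} (hs : ∀ e ∈ s, NeZero (e : K))
    {μ : K} (hμ : orderOf μ = d) : (s.map fun e => cyclotomic e K).prod.roots.count μ ≤ s.count d := by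
  classical
  induction s using Multiset.induction with
  | empty => simp
  | cons e s ih =>
    rw [Multiset.map_cons, Multiset.prod_cons, roots_mul, Multiset.count_add, Multiset.count_cons, add_comm (Multiset.count d s)]
    · refine add_le_add ?_ (ih fun x hx => hs x (Multiset.mem_cons_of_mem hx))
      have := hs e (Multiset.mem_cons_self e s)
      split
      · exact Multiset.nodup_iff_count_le_one.1 (nodup_roots (separable_cyclotomic e K)) μ
      · rename_i hne
        rw [nonpos_iff_eq_zero, Multiset.count_eq_zero]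
        intro hmem
        rw [mem_roots (cyclotomic_ne_zero e _), isRoot_cyclotomic_iff] at hmem
        exact hne (hμ ▸ hmem.eq_orderOf.symm)
    · refine mul_ne_zero (cyclotomic_ne_zero e _) (Multiset.prod_ne_zero fun h => ?_)
      obtain ⟨x, -, hx⟩ := Multiset.mem_map.1 h
      exact cyclotomic_ne_zero x _ hx

/-- Root multiplicities of the characteristic polynomial over a field. -/
theorem rootMultiplicity_le {K : Type*} [Field K] {d : ℕ} {M : Matrix (Fin l) (Fin l) ℤ} {s : Multiset ℕ}
    (hs : ∀ e ∈ s, NeZero (e : K)) (hchar : M.charpoly = (s.map fun e => cyclotomic e ℤ).prod) {μ : K}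
    (hμ : orderOf μ = d) : (M.map (Int.cast : ℤ → K)).charpoly.rootMultiplicity μ ≤ s.count d := by
  classical
  rw [show M.map (Int.cast : ℤ → K) = M.map (Int.castRingHom K) from rfl,
    Matrix.charpoly_map, hchar, Polynomial.map_multiset_prod, Multiset.map_map, ← count_roots]
  simp only [Function.comp_def, map_cyclotomic]
  exact count_roots_le hs hμ

/-- The eigenspace of an element of order `d` is bounded by the multiplicity of `Φ_d`. -/
theorem finrank_eigen_le {r d : ℕ} [Fact r.Prime] {M : Matrix (Fin l) (Fin l) ℤ} {m : ℕ} (hrm : ¬ r ∣ m)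
    {s : Multiset ℕ} (hs : ∀ e ∈ s, e ∣ m) (hchar : M.charpoly = (s.map fun e => cyclotomic e ℤ).prod)
    {μ : ZMod r} (hμ : orderOf μ = d) :
    Module.finrank (ZMod r)
      (Module.End.eigenspace (Matrix.toLin' (M.map (Int.cast : ℤ → ZMod r))) μ) ≤ s.count d := by
  refine (LinearMap.finrank_eigenspace_le _ μ).trans ?_
  rw [Matrix.charpoly_toLin']
  exact rootMultiplicity_le (fun e he => ⟨fun h => hrm (((ZMod.natCast_eq_zero_iff e r).1 h).trans (hs e he))⟩) hchar hμ

/-- Splitting off the copies of one value. -/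
theorem eq_replicate_add (s : Multiset ℕ) (d : ℕ) :
    s = Multiset.replicate (s.count d) d + s.filter (fun e => e ≠ d) := by
  conv_lhs => rw [← Multiset.filter_add_not (fun e => e = d) s]
  rw [Multiset.filter_eq']

theorem sum_split (s : Multiset ℕ) (d : ℕ) :
    (s.map Nat.totient).sum = s.count d * d.totient + ((s.filter fun e => e ≠ d).map Nat.totient).sum := by
  conv_lhs => rw [eq_replicate_add s d]
  simp

theorem count_mul_totient_le (s : Multiset ℕ) (d : ℕ) : s.count d * d.totient ≤ (s.map Nat.totient).sum := by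
  rw [sum_split s d]; omega

/-- The characteristic polynomial at a full multiplicity kills the matrix. -/
theorem aeval_eq_zero_of_top {M : Matrix (Fin l) (Fin l) ℤ} {m : ℕ} (hm : 0 < m) (hM : M ^ m = 1)
    {s : Multiset ℕ} (hs : ∀ e ∈ s, e ∣ m) (hchar : M.charpoly = (s.map fun e => cyclotomic e ℤ).prod)
    {t : Finset ℕ} (ht : ∀ e ∈ s, e ∈ t) : aeval M (∏ e ∈ t, cyclotomic e ℤ) = 0 := by
  classical
  obtain ⟨S, hS, h0, hmin, -⟩ := exists_factors hm hM
  have hsub : S ⊆ t := by
    intro k hk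
    have hk0 : 0 < k := Nat.pos_of_mem_divisors (hS hk)
    have h1 : cyclotomic k ℚ ∣ (M.map (Int.castRingHom ℚ)).charpoly :=
      ((Finset.dvd_prod_of_mem _ hk).trans hmin.symm.dvd).trans (Matrix.minpoly_dvd_charpoly _)
    rw [Matrix.charpoly_map, hchar, Polynomial.map_multiset_prod, Multiset.map_map] at h1
    obtain ⟨f, hf, hkf⟩ := (cyclotomic.irreducible_rat hk0).prime.exists_mem_multiset_dvd h1
    obtain ⟨e, he, rfl⟩ := Multiset.mem_map.1 hf
    simp only [Function.comp_apply, map_cyclotomic] at hkf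
    have he0 : 0 < e := Nat.pos_of_dvd_of_pos (hs e he) hm
    have h2 := eq_of_monic_of_associated (cyclotomic.monic k ℚ) (cyclotomic.monic e ℚ)
      ((cyclotomic.irreducible_rat hk0).associated_of_dvd (cyclotomic.irreducible_rat he0) hkf)
    exact (cyclotomic_injective (R := ℚ) h2) ▸ ht e he
  rw [← Finset.prod_sdiff hsub, map_mul, h0, mul_zero]

/-- A matrix with values in a one-dimensional eigenspace has proportional columns. -/
theorem minors_eq_zero {M N : Matrix (Fin l) (Fin l) ℤ} {ε : ℤ}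
    (hmult : (M.map (Int.cast : ℤ → ℚ)).charpoly.rootMultiplicity (ε : ℚ) ≤ 1) (hMN : M * N = ε • N)
    (i i' j j' : Fin l) : N i j * N i' j' = N i j' * N i' j := by
  have hcol : ∀ j, (fun i => (N i j : ℚ)) ∈
      Module.End.eigenspace (Matrix.toLin' (M.map (Int.cast : ℤ → ℚ))) (ε : ℚ) := by
    intro j
    rw [Module.End.mem_eigenspace_iff, Matrix.toLin'_apply]
    funext i
    have h := congrArg (fun A : Matrix (Fin l) (Fin l) ℤ => ((A i j : ℤ) : ℚ)) hMN
    simpa [Matrix.mul_apply, Matrix.mulVec, dotProduct, mul_comm] using h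
  have hle : Module.finrank ℚ
      (Module.End.eigenspace (Matrix.toLin' (M.map (Int.cast : ℤ → ℚ))) (ε : ℚ)) ≤ 1 :=
    (LinearMap.finrank_eigenspace_le _ _).trans (by rw [Matrix.charpoly_toLin']; exact hmult)
  obtain ⟨v, hv⟩ := finrank_le_one_iff.1 hle
  obtain ⟨a, ha⟩ := hv ⟨_, hcol j⟩
  obtain ⟨b, hb⟩ := hv ⟨_, hcol j'⟩
  have hA : ∀ i, a * (v.1 i) = (N i j : ℚ) := fun i => congrFun (congrArg Subtype.val ha) i
  have hB : ∀ i, b * (v.1 i) = (N i j' : ℚ) := fun i => congrFun (congrArg Subtype.val hb) i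
  have : ((N i j * N i' j' : ℤ) : ℚ) = ((N i j' * N i' j : ℤ) : ℚ) := by
    push_cast
    rw [← hA, ← hA, ← hB, ← hB]; ring
  exact_mod_cast this

end Cfsg.Agent.Lib.Chev.Homocyclic
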