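import Cfsg.Agent.Lib.Chev.CoxTorus.Main
import Cfsg.Agent.Lib.Chev.Homocyclic.Poly
import Cfsg.Agent.Lib.Chev.Homocyclic.Abelian
import Cfsg.Agent.Lib.Chev.Poincare

/-!
Sylow subgroups for primes not dividing `q` or the order of the Weyl group are homocyclic.
-/

set_option autoImplicit false

namespace Cfsg.Agent.Lib.Chev.Homocyclic

open Cfsg.Lie Cfsg.Agent.Lib Cfsg.Agent.Lib.Chev Polynomial
open Cfsg.Agent.Lib.Chev.CoxTorus (wMat sgPerm fnl zpow_eq_iff cast_fnl chrOf_exp conj_decomp' mulVec_eq_zero_iff)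

variable {D : ChevalleyDatum} {T : Fast} {F : Type*} [Field F] [Fintype F]

/-- The bound on the multiplicity of `Φ_d` in a Weyl group element. -/
def MultBound (C : Checked D T) (d a : ℕ) : Prop :=
  ∀ (K : Type) (_ : Field K) (n : GL D.Idx K), n ∈ D.monomialSubgroup K →
    ∀ (m : ℕ) (s : Multiset ℕ), 0 < m → wMat C n ^ m = 1 → (∀ e ∈ s, e ∣ m) →
      (wMat C n).charpoly = (s.map fun e => cyclotomic e ℤ).prod → (s.map Nat.totient).sum = D.rank →
      s.count d ≤ a

theorem card_range_sgPerm (C : Checked D T) {K : Type*} [Field K] :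
    Nat.card (sgPerm (F := K) C).range = Nat.card (C.W K) := by
  classical
  refine (Nat.card_congr (Equiv.ofBijective
    (fun w : C.W K => (⟨sgPerm C ⟨C.rep w, C.rep_mem w⟩, ⟨_, rfl⟩⟩ : (sgPerm (F := K) C).range)) ⟨?_, ?_⟩)).symm
  · intro w w' h
    rw [← C.cls_rep w, ← C.cls_rep w']
    refine C.cls_eq_of_sg _ _ fun v hv => ?_
    exact congrArg (fun π : Equiv.Perm (Fin D.nroots) => (π ⟨v, hv⟩ : ℕ)) (congrArg Subtype.val h)
  · rintro ⟨π, ⟨n, hn⟩, rfl⟩
    refine ⟨BN.cls _ (C.toN n hn), Subtype.ext (Equiv.ext fun v => Fin.ext ?_)⟩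
    exact C.sg_cls_congr (C.rep_mem _) hn (C.cls_rep _) v.2

/-- The order of the Weyl group is a period of every monomial element on the roots. -/
theorem wMat_pow_card (C : Checked D T) {K : Type*} [Field K] {n : GL D.Idx K}
    (hn : n ∈ D.monomialSubgroup K) : wMat C n ^ Nat.card (C.W K) = 1 := by
  rw [← CoxTorus.wMat_pow C hn]
  refine CoxTorus.wMat_eq_one C fun v hv => ?_
  have h : sgPerm C ⟨n, hn⟩ ^ Nat.card (C.W K) = 1 := by
    rw [← card_range_sgPerm C]
    exact congrArg Subtype.val (pow_card_eq_one' (x := (⟨_, ⟨⟨n, hn⟩, rfl⟩⟩ : (sgPerm (F := K) C).range)))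
  have h' := congrArg (fun π : Equiv.Perm (Fin D.nroots) => (π ⟨v, hv⟩ : ℕ)) h
  simp only [Equiv.Perm.coe_one, id_eq] at h'
  rw [← map_pow, CoxTorus.val_sgPerm, SubmonoidClass.coe_pow] at h'
  exact h'

theorem cartan_eq_of_torus (C : Checked D T) {K : Type*} [Field K] {c c' : Fin D.rank → Kˣ}
    (h : C.torus c = C.torus c') : C.cartanMap c = C.cartanMap c' := by
  have h1 : C.torus (c * c'⁻¹) = 1 := by
    show C.torusHom (c * c'⁻¹) = 1
    rw [map_mul, map_inv, show C.torusHom c = C.torusHom c' from h, mul_inv_cancel]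
  have h2 := (C.torus_eq_one_iff _).1 h1
  rwa [map_mul, map_inv, mul_inv_eq_one] at h2

/-- The simple root values of a diagonal element. -/
noncomputable def coords (C : Checked D T) (K : Type*) [Field K] :
    ↥(D.diagonalSubgroup K) →* (Fin D.rank → Kˣ) :=
  MonoidHom.mk' (fun h => C.cartanMap (C.exists_torus h.2).choose) fun h h' => by
    rw [← map_mul]
    refine cartan_eq_of_torus C ?_
    rw [C.torus_mul, (C.exists_torus h.2).choose_spec, (C.exists_torus h'.2).choose_spec,
      (C.exists_torus (h * h').2).choose_spec]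
    rfl

theorem coords_injective (C : Checked D T) (K : Type*) [Field K] : Function.Injective (coords C K) := by
  refine (injective_iff_map_eq_one _).2 fun h e => ?_
  have h1 : C.cartanMap (C.exists_torus h.2).choose = 1 := e
  rw [← C.torus_eq_one_iff, (C.exists_torus h.2).choose_spec] at h1
  exact Subtype.ext h1

/-- An `r`-subgroup over a field with `Q ≡ 1` is conjugate into the torus. -/
theorem conj_subgroup (C : Checked D T) {L : Type*} [Field L] [Fintype L] {degs : List ℕ}
    (hd : T.degCheck degs = true) (hd1 : ∀ e ∈ degs, 1 ≤ e) {r : ℕ} [hr : Fact r.Prime]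
    (hW : ¬ r ∣ degs.prod) (hQ : (Fintype.card L : ZMod r) = 1)
    (S : Subgroup ↥(D.group L)) (hS : IsPGroup r S) :
    ∃ g : ↥(D.group L), ∀ x ∈ S, ((g * x * g⁻¹ : ↥(D.group L)) : GL D.Idx L) ∈ D.diagonalSubgroup L := by
  classical
  set G := D.group L with hG
  set T' := (D.diagonalSubgroup L).subgroupOf G with hT'
  have hlen : degs.length = D.rank := by
    simp only [Fast.degCheck, Bool.and_eq_true] at hd
    rw [C.tables.rank]
    exact Nat.eq_of_beq_eq_true hd.1
  have hTcard : Nat.card (C.cartanMap (F := L)).ker * Nat.card T' = (Fintype.card L - 1) ^ D.rank := by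
    rw [Nat.card_congr (Subgroup.subgroupOfEquivOfLe C.diag_le_group).toEquiv]
    exact C.card_diag (F := L)
  have hidx : ¬ r ∣ T'.index := by
    intro hdvd
    have h1 := C.card_eq (F := L) hd hd1 (d := _) rfl
    rw [← Subgroup.card_mul_index T', Nat.cast_mul, ← mul_assoc, ← Nat.cast_mul, hTcard] at h1
    set Q : ℤ := (Fintype.card L : ℤ) with hQdef
    have hQ1 : Q - 1 ≠ 0 := by
      have := Fintype.one_lt_card (α := L)
      omega
    have hprod : ∀ l : List ℕ, (l.map fun e => Q ^ e - 1).prod =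
        (Q - 1) ^ l.length * (l.map fun e => ∑ i ∈ Finset.range e, Q ^ i).prod := by
      intro l
      induction l with
      | nil => simp
      | cons e l ih =>
        rw [List.map_cons, List.prod_cons, ih, List.map_cons, List.prod_cons, List.length_cons,
          ← geom_sum_mul, pow_succ]
        ring
    push_cast [Nat.cast_sub Fintype.card_pos] at h1
    rw [hprod, hlen, ← hQdef] at h1
    have h2 : (T'.index : ℤ) = Q ^ T.npos * (degs.map fun e => ∑ i ∈ Finset.range e, Q ^ i).prod :=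
      mul_left_cancel₀ (pow_ne_zero D.rank hQ1) (by linear_combination h1)
    have h3 := congrArg (fun z : ℤ => (z : ZMod r)) h2
    simp only [Int.cast_natCast, Int.cast_mul, Int.cast_pow, (ZMod.natCast_eq_zero_iff _ r).2 hdvd,
      hQdef, hQ, one_pow, one_mul, ← Int.coe_castRingHom, map_list_prod, List.map_map] at h3
    refine List.prod_ne_zero ?_ h3.symm
    simp only [List.mem_map, not_exists, not_and]
    intro e he h4
    have h5 : (e : ZMod r) = 0 := by
      rw [← h4]
      simp [hQdef, hQ]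
    exact hW (((ZMod.natCast_eq_zero_iff e r).1 h5).trans (List.dvd_prod he))
  obtain ⟨R₀⟩ : Nonempty (Sylow r ↥T') := inferInstance
  let R₁ : Sylow r ↥G := Sylow.ofCard ((R₀ : Subgroup ↥T').map T'.subtype) (by
    rw [Subgroup.card_map_of_injective T'.subtype_injective, R₀.card_eq_multiplicity,
      ← Subgroup.card_mul_index T', Nat.factorization_mul Nat.card_pos.ne' Subgroup.index_ne_zero_of_finite,
      Finsupp.add_apply, Nat.factorization_eq_zero_of_not_dvd hidx, add_zero])
  obtain ⟨R₂, hR₂⟩ := hS.exists_le_sylow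
  obtain ⟨g, hg⟩ := MulAction.exists_smul_eq ↥G R₂ R₁
  refine ⟨g, fun x hx => ?_⟩
  have hmem : g * x * g⁻¹ ∈ (R₁ : Subgroup ↥G) := by
    rw [← hg, Sylow.smul_def, Sylow.pointwise_smul_def, Subgroup.mem_pointwise_smul_iff_inv_smul_mem]
    simp only [← map_inv, MulAut.smul_def, MulAut.conj_apply, inv_inv]
    rw [show g⁻¹ * (g * x * g⁻¹) * g = x by group]
    exact hR₂ hx
  obtain ⟨y, -, hy⟩ := Subgroup.mem_map.1 hmem
  rw [← hy]
  exact Subgroup.mem_subgroupOf.1 y.2

/-- The `r`-part of `q ^ e - 1`. -/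
theorem padic_pow_sub_one {r q d : ℕ} [hr : Fact r.Prime] (hq : 2 ≤ q) (hd : orderOf (q : ZMod r) = d)
    (hd0 : 0 < d) {e : ℕ} (he : 0 < e) (hre : ¬ r ∣ e) :
    padicValNat r (q ^ e - 1) =
      if d ∣ e then padicValNat r ((cyclotomic d ℤ).eval (q : ℤ)).natAbs else 0 := by
  have hcast : ∀ k : ℕ, ((q ^ k - 1 : ℕ) : ZMod r) = (q : ZMod r) ^ k - 1 := fun k => by
    rw [Nat.cast_sub (Nat.one_le_pow _ _ (by omega))]; simp
  have hpos : ∀ k : ℕ, 0 < k → 0 < q ^ k - 1 := fun k hk =>
    Nat.sub_pos_of_lt (Nat.one_lt_pow hk.ne' (by omega))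
  split
  · rename_i hde
    obtain ⟨c, rfl⟩ := hde
    have hc0 : 0 < c := Nat.pos_of_mul_pos_left he
    have hd1 : (q : ZMod r) ^ d = 1 := hd ▸ pow_orderOf_eq_one _
    have hfac : q ^ (d * c) - 1 = (q ^ d - 1) * ∑ i ∈ Finset.range c, (q ^ d) ^ i := by
      rw [pow_mul, mul_comm]
      exact (geom_sum_mul_of_one_le (Nat.one_le_pow _ _ (by omega)) c).symm
    have hgeom : ¬ r ∣ ∑ i ∈ Finset.range c, (q ^ d) ^ i := by
      rw [← ZMod.natCast_eq_zero_iff]
      push_cast
      simp only [hd1, one_pow, Finset.sum_const, Finset.card_range, nsmul_eq_mul, mul_one]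
      rw [ZMod.natCast_eq_zero_iff]
      exact fun h => hre (h.trans (dvd_mul_left c d))
    have hg0 : (∑ i ∈ Finset.range c, (q ^ d) ^ i) ≠ 0 := fun h => hgeom (h ▸ dvd_zero r)
    rw [hfac, padicValNat.mul (hpos d hd0).ne' hg0, padicValNat.eq_zero_of_not_dvd hgeom, add_zero]
    -- split off the cyclotomic factor
    have hprod := congrArg (Polynomial.eval (q : ℤ)) (prod_cyclotomic_eq_X_pow_sub_one hd0 ℤ)
    rw [eval_prod, eval_sub, eval_pow, eval_X, eval_one] at hprod
    have hn : ((q : ℤ) ^ d - 1).natAbs = q ^ d - 1 := by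
      rw [show (q : ℤ) ^ d - 1 = ((q ^ d - 1 : ℕ) : ℤ) by
        rw [Nat.cast_sub (Nat.one_le_pow _ _ (by omega))]; simp, Int.natAbs_natCast]
    rw [← hn, ← hprod, ← Nat.insert_self_properDivisors hd0.ne', Finset.prod_insert Nat.self_notMem_properDivisors,
      Int.natAbs_mul]
    have hrest : ¬ r ∣ (∏ k ∈ d.properDivisors, (cyclotomic k ℤ).eval (q : ℤ)).natAbs := by
      rw [← Int.natCast_dvd]
      intro h
      obtain ⟨k, hk, hrk⟩ := (Nat.prime_iff_prime_int.1 hr.out).exists_mem_finset_dvd h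
      obtain ⟨hkd, hlt⟩ := Nat.mem_properDivisors.1 hk
      have : NeZero (k : ZMod r) := ⟨fun h0 => hre
        (((ZMod.natCast_eq_zero_iff k r).1 h0).trans (hkd.trans (dvd_mul_right d c)))⟩
      have hroot : (cyclotomic k (ZMod r)).IsRoot (q : ZMod r) := by
        rw [IsRoot, ← map_cyclotomic_int, eval_map, ← Int.cast_natCast q, ← eq_intCast (Int.castRingHom (ZMod r)),
          eval₂_at_apply]
        simpa using (ZMod.intCast_zmod_eq_zero_iff_dvd _ r).2 hrk
      have := (isRoot_cyclotomic_iff.1 hroot).eq_orderOf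
      omega
    have h1 : ((cyclotomic d ℤ).eval (q : ℤ)).natAbs ≠ 0 := by
      rw [Int.natAbs_ne_zero]
      intro h0
      rw [← Nat.insert_self_properDivisors hd0.ne', Finset.prod_insert Nat.self_notMem_properDivisors, h0,
        zero_mul] at hprod
      have := hpos d hd0
      have hh : ((q ^ d - 1 : ℕ) : ℤ) = 0 := by
        rw [Nat.cast_sub (Nat.one_le_pow _ _ (by omega))]; push_cast; exact hprod.symm
      omega
    rw [padicValNat.mul h1 (fun h0 => hrest (by rw [h0]; exact dvd_zero r)), padicValNat.eq_zero_of_not_dvd hrest, add_zero]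
  · rename_i hde
    refine padicValNat.eq_zero_of_not_dvd fun h => hde ?_
    rw [← hd]
    refine orderOf_dvd_of_pow_eq_one (sub_eq_zero.1 ?_)
    rw [← hcast, (ZMod.natCast_eq_zero_iff _ r).2 h]

theorem padic_prod {r q d v : ℕ} [Fact r.Prime] (hq : 2 ≤ q)
    (h : ∀ e : ℕ, 0 < e → ¬ r ∣ e → padicValNat r (q ^ e - 1) = if d ∣ e then v else 0) :
    ∀ degs : List ℕ, (∀ e ∈ degs, 0 < e ∧ ¬ r ∣ e) →
      0 < (degs.map fun e => q ^ e - 1).prod ∧
        padicValNat r (degs.map fun e => q ^ e - 1).prod = (degs.filter fun e => d ∣ e).length * v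
  | [], _ => by simp
  | e :: degs, he => by
    obtain ⟨h1, h2⟩ := padic_prod hq h degs fun x hx => he x (List.mem_cons_of_mem _ hx)
    obtain ⟨he0, hre⟩ := he e List.mem_cons_self
    have hpos : 0 < q ^ e - 1 := Nat.sub_pos_of_lt (Nat.one_lt_pow he0.ne' (by omega))
    rw [List.map_cons, List.prod_cons]
    refine ⟨mul_pos hpos h1, ?_⟩
    rw [padicValNat.mul hpos.ne' h1.ne', h2, h e he0 hre]
    by_cases hde : d ∣ e
    · simp [hde, add_mul, add_comm]
    · simp [hde]

theorem sylow_homocyclic (C : Checked D T) {degs : List ℕ} (hd : T.degCheck degs = true)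
    (hd1 : ∀ e ∈ degs, 1 ≤ e) (hpoly : evalL (1 : ℤ) (T.poly T.l) = (degs.prod : ℕ))
    {q r : ℕ} [hr : Fact r.Prime] (hF : Fintype.card F = q) (hrq : ¬ r ∣ q) (hW : ¬ r ∣ degs.prod)
    (hker : ¬ r ∣ Nat.card (C.cartanMap (F := F)).ker)
    (hbound : MultBound C (orderOf (q : ZMod r)) (degs.filter fun e => orderOf (q : ZMod r) ∣ e).length)
    (P : Sylow r ↥(D.group F)) :
    Nonempty (↥(P : Subgroup ↥(D.group F)) ≃*
      (Fin (degs.filter fun e => orderOf (q : ZMod r) ∣ e).length →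
        Multiplicative (ZMod (r ^ padicValNat r ((cyclotomic (orderOf (q : ZMod r)) ℤ).eval (q : ℤ)).natAbs)))) := by
  classical
  set d := orderOf (q : ZMod r) with hord
  set a := (degs.filter fun e => d ∣ e).length with ha
  set v := padicValNat r ((cyclotomic d ℤ).eval (q : ℤ)).natAbs with hv
  have hq2 : 2 ≤ q := hF ▸ Fintype.one_lt_card (α := F)
  have hq0 : (q : ZMod r) ≠ 0 := fun h => hrq ((ZMod.natCast_eq_zero_iff q r).1 h)
  have hd0 : 0 < d := by
    rw [hord]
    exact orderOf_pos_iff.2 (IsUnit.isOfFinOrder (isUnit_iff_ne_zero.2 hq0))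
  have : NeZero d := ⟨hd0.ne'⟩
  have hdr : ¬ r ∣ d := fun h => by
    have h1 : d ∣ r - 1 := ZMod.orderOf_dvd_card_sub_one hq0
    have h2 := Nat.le_of_dvd (by have := hr.out.two_le; omega) (h.trans h1)
    have := hr.out.two_le
    omega
  -- the order of `P`
  have hre : ∀ e ∈ degs, 0 < e ∧ ¬ r ∣ e := fun e he => ⟨hd1 e he, fun h => hW (h.trans (List.dvd_prod he))⟩
  obtain ⟨hpp, hpv⟩ := padic_prod (v := v) hq2 (fun e he hre => padic_pow_sub_one hq2 rfl hd0 he hre) degs hre
  have hPcard : Nat.card P = r ^ (a * v) := by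
    rw [P.card_eq_multiplicity]
    congr 1
    have h1 := C.card_eq (F := F) hd hd1 (d := _) rfl
    have h2 : Nat.card (C.cartanMap (F := F)).ker * Nat.card (D.group F) =
        q ^ T.npos * (degs.map fun e => q ^ e - 1).prod := by
      apply Nat.cast_injective (R := ℤ)
      push_cast
      rw [h1, hF, List.map_map]
      congr 2
      refine List.map_congr_left fun e _ => ?_
      rw [Function.comp_apply, Nat.cast_sub (Nat.one_le_pow _ _ (by omega))]
      simp
    have h3 := congrArg (padicValNat r) h2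
    rw [padicValNat.mul Nat.card_pos.ne' Nat.card_pos.ne', padicValNat.eq_zero_of_not_dvd hker, zero_add,
      padicValNat.mul (pow_ne_zero _ (by omega)) hpp.ne',
      padicValNat.eq_zero_of_not_dvd (fun h => hrq (hr.out.dvd_of_dvd_pow h)), zero_add, hpv] at h3
    rw [Nat.factorization_def _ hr.out, h3]
  -- the extension field
  obtain ⟨p, hchar⟩ := CharP.exists F
  have : Fact p.Prime := ⟨CharP.char_is_prime F p⟩
  let L := FiniteField.Extension F p d
  let _ : Fintype L := Fintype.ofFinite L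
  have hL : Fintype.card L = q ^ d := by
    rw [← Nat.card_eq_fintype_card, FiniteField.natCard_extension, Nat.card_eq_fintype_card, hF]
  obtain ⟨σ, hσ⟩ : ∃ σ : L ≃+* L, ∀ t, σ t = t ^ q :=
    exists_frob (hF ▸ Fintype.isPrimePow_card_of_field) hd0.ne' hL
  let i : F →+* L := algebraMap F L
  have hσi : σ.toRingHom.comp i = i := RingHom.ext fun y => by
    show σ (i y) = i y
    rw [hσ, ← map_pow, ← hF, FiniteField.pow_card]
  have hQ : (Fintype.card L : ZMod r) = 1 := by
    rw [hL, Nat.cast_pow]; exact pow_orderOf_eq_one _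
  have hgt : ∀ c : Fin D.rank → Lˣ, gmap D σ.toRingHom (C.torus c) = C.torus (c ^ q) := fun c => by
    rw [C.gmap_torus]
    exact congrArg C.torus (funext fun k => Units.ext (by simp [hσ]))
  -- the embedding into the torus
  let ι : ↥(P : Subgroup ↥(D.group F)) →* ↥(D.group L) :=
    { toFun := fun x => ⟨gmap D i ((x : ↥(D.group F)) : GL D.Idx F), C.gmap_group i x.1.2⟩
      map_one' := Subtype.ext (map_one (gmap D i))
      map_mul' := fun x y => Subtype.ext (map_mul (gmap D i) _ _) }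
  have hιinj : Function.Injective ι := fun x y h =>
    Subtype.ext (Subtype.ext (gmap_injective i (congrArg Subtype.val h)))
  obtain ⟨g, hg⟩ := conj_subgroup C hd hd1 hW hQ ι.range (P.isPGroup'.of_surjective ι.rangeRestrict
    ι.rangeRestrict_surjective)
  let κ : ↥(P : Subgroup ↥(D.group F)) →* ↥(D.diagonalSubgroup L) :=
    { toFun := fun x => ⟨((g * ι x * g⁻¹ : ↥(D.group L)) : GL D.Idx L), hg _ ⟨x, rfl⟩⟩
      map_one' := Subtype.ext (by simp)
      map_mul' := fun x y => Subtype.ext (congrArg (fun z : ↥(D.group L) => (z : GL D.Idx L))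
        (show g * ι (x * y) * g⁻¹ = g * ι x * g⁻¹ * (g * ι y * g⁻¹) by rw [map_mul]; group)) }
  have hκinj : Function.Injective κ := fun x y h => by
    have h1 : g * ι x * g⁻¹ = g * ι y * g⁻¹ := Subtype.ext (congrArg (fun z : ↥(D.diagonalSubgroup L) => (z : GL D.Idx L)) h)
    exact hιinj (mul_left_cancel (mul_right_cancel h1))
  let ψ : ↥(P : Subgroup ↥(D.group F)) →* (Fin D.rank → Lˣ) := (coords C L).comp κ
  have hψinj : Function.Injective ψ := (coords_injective C L).comp hκinj
  -- the eigen relation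
  set gL : GL D.Idx L := (g : GL D.Idx L) with hgL
  set n₀ := gmap D σ.toRingHom gL * gL⁻¹ with hn₀
  have hn₀g : n₀ ∈ D.group L := mul_mem (C.gmap_group _ g.2) (inv_mem g.2)
  obtain ⟨b, hb, n, hn, u, hu, hbnu⟩ := C.exists_bnu hn₀g
  have hrel : ∀ x, ∃ c : Fin D.rank → Lˣ, C.cartanMap c = ψ x ∧
      ∀ w < D.nroots, C.chrOf (c ^ q) (C.sg n w) = C.chrOf c w := by
    intro x
    refine ⟨_, rfl, (conj_decomp' C hb hn hu ?_).1⟩
    rw [← hbnu, ← hgt, (C.exists_torus (κ x).2).choose_spec]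
    have hfix : gmap D σ.toRingHom ((ι x : ↥(D.group L)) : GL D.Idx L) = (ι x : GL D.Idx L) := by
      show gmap D σ.toRingHom (gmap D i _) = gmap D i _
      rw [gmap_gmap, hσi]
    show gmap D σ.toRingHom ((g * ι x * g⁻¹ : ↥(D.group L)) : GL D.Idx L) * n₀ =
      n₀ * ((g * ι x * g⁻¹ : ↥(D.group L)) : GL D.Idx L)
    rw [Subgroup.coe_mul, Subgroup.coe_mul, Subgroup.coe_inv, map_mul, map_mul, map_inv, hfix, hn₀, hgL]
    group
  -- the exponent
  have hexp : ∀ z : ψ.range, z ^ (r ^ v) = 1 := by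
    rintro ⟨_, x, rfl⟩
    refine Subtype.ext (funext fun k => ?_)
    show (ψ x k) ^ (r ^ v) = 1
    obtain ⟨j, hj⟩ := P.isPGroup' x
    have h1 : orderOf (ψ x k) ∣ r ^ j :=
      orderOf_dvd_of_pow_eq_one (by rw [← Pi.pow_apply, ← map_pow, hj, map_one, Pi.one_apply])
    obtain ⟨i', -, hi'⟩ := (Nat.dvd_prime_pow hr.out).1 h1
    have h2 : r ^ i' ∣ q ^ d - 1 := by
      rw [← hi', ← hL, ← Fintype.card_units]
      exact orderOf_dvd_card
    rw [padicValNat_dvd_iff_le (Nat.sub_pos_of_lt (Nat.one_lt_pow hd0.ne' (by omega))).ne',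
      padic_pow_sub_one hq2 rfl hd0 hd0 hdr, if_pos dvd_rfl] at h2
    refine orderOf_dvd_iff_pow_eq_one.1 ?_
    rw [hi']
    exact pow_dvd_pow r h2
  -- the rank
  have hrM : r ∣ Fintype.card Lˣ := by
    rw [Fintype.card_units, ← ZMod.natCast_eq_zero_iff, Nat.cast_sub Fintype.card_pos, hQ, Nat.cast_one, sub_self]
  obtain ⟨ζ, hζ⟩ := exists_prime_orderOf_dvd_card r hrM
  have hζp : IsPrimitiveRoot ζ r := hζ ▸ IsPrimitiveRoot.orderOf ζ
  have : NeZero r := ⟨hr.out.ne_zero⟩
  set M := wMat C n⁻¹ with hM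
  set m := Nat.card (C.W L) with hm
  have hm0 : 0 < m := Nat.card_pos
  have hrm : ¬ r ∣ m := by
    intro h
    refine hW ?_
    have h1 : ((m : ℕ) : ℤ) = ((degs.prod : ℕ) : ℤ) := by
      rw [hm, C.card_W, C.tables.rank, hpoly]
    rwa [← Nat.cast_injective h1]
  have hMm : M ^ m = 1 := wMat_pow_card C (inv_mem hn)
  obtain ⟨s, hs, hchar', hsum⟩ := exists_multiset hm0 hMm
  have hcount : s.count d ≤ a := hbound L _ n⁻¹ (inv_mem hn) m s hm0 hMm hs hchar' hsum
  set E := Module.End.eigenspace (Matrix.toLin' (M.map (Int.cast : ℤ → ZMod r))) (q : ZMod r) with hE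
  have hEle : Nat.card E ≤ r ^ a := by
    rw [Module.natCard_eq_pow_finrank (K := ZMod r), Nat.card_zmod]
    exact Nat.pow_le_pow_right hr.out.pos ((finrank_eigen_le hrm hs hchar' rfl).trans hcount)
  have hlog : ∀ z : (powMonoidHom (α := ψ.range) r).ker, ∃ e : E, ∀ k,
      ∃ j : ℤ, (z.1.1 k) = ζ ^ j ∧ (j : ZMod r) = e.1 k := by
    rintro ⟨⟨_, x, rfl⟩, hz⟩
    have hz' : (ψ x) ^ r = 1 := congrArg Subtype.val hz
    have h1 : ∀ k, ∃ j : ℤ, ζ ^ j = ψ x k := by
      intro k
      refine Subgroup.mem_zpowers_iff.1 ?_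
      rw [hζp.zpowers_eq, mem_rootsOfUnity, ← Pi.pow_apply, hz', Pi.one_apply]
    choose j hj using h1
    refine ⟨⟨fun k => (j k : ZMod r), ?_⟩, fun k => ⟨j k, (hj k).symm, rfl⟩⟩
    obtain ⟨c, hc, hcrel⟩ := hrel x
    have hker : ((Matrix.scalar (Fin D.rank) (q : ℤ) - M).map (Int.cast : ℤ → ZMod r)).mulVec
        (fun k => (j k : ZMod r)) = 0 := by
      rw [hM, mulVec_eq_zero_iff C hn]
      intro w hw
      have h2 := hcrel w hw
      rw [chrOf_exp C (c := c) (fun k => by rw [hc]; exact (hj k).symm) hw, chrOf_exp C (c := c ^ q) (g := ζ)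
        (e := fun k => j k * q) (fun k => by
          rw [map_pow, Pi.pow_apply, hc, ← hj, ← zpow_natCast, ← zpow_mul]) (C.sg_lt hn hw), Units.val_inj,
        zpow_eq_iff ζ hζ, cast_fnl, cast_fnl] at h2
      rw [← h2]
      simp only [fnl, Finset.mul_sum]
      exact Finset.sum_congr rfl fun k _ => by push_cast; ring
    rw [hE, Module.End.mem_eigenspace_iff, Matrix.toLin'_apply]
    have hmap : (Matrix.scalar (Fin D.rank) (q : ℤ) - M).map (Int.cast : ℤ → ZMod r) =
        Matrix.scalar (Fin D.rank) (q : ZMod r) - M.map (Int.cast : ℤ → ZMod r) := by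
      show (Int.castRingHom (ZMod r)).mapMatrix (Matrix.scalar (Fin D.rank) (q : ℤ) - M) = _
      rw [map_sub]
      congr 1
      ext a b
      by_cases hab : a = b <;> simp [hab]
    rw [hmap, Matrix.sub_mulVec, sub_eq_zero] at hker
    rw [← hker]
    funext k
    simp [Matrix.mulVec_diagonal]
  choose e he using hlog
  have hom : Nat.card (powMonoidHom (α := ψ.range) r).ker ≤ r ^ a := by
    refine (Nat.card_le_card_of_injective e fun z z' h => Subtype.ext (Subtype.ext (funext fun k => ?_))).trans hEle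
    obtain ⟨j, hj, hje⟩ := he z k
    obtain ⟨j', hj', hje'⟩ := he z' k
    rw [hj, hj', zpow_eq_iff ζ hζ, hje, hje', h]
  obtain ⟨φ⟩ := homocyclic (v := v) (a := a) hexp
    (by rw [← Nat.card_congr (MonoidHom.ofInjective hψinj).toEquiv]; exact hPcard) hom
  exact ⟨(MonoidHom.ofInjective hψinj).trans φ⟩

end Cfsg.Agent.Lib.Chev.Homocyclic
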