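import Cfsg.Agent.Lib.Chev.Homocyclic.Lattice
import Cfsg.Agent.Lib.Chev.Homocyclic.Main
import Cfsg.Agent.Lib.Chev.All

/-!
The multiplicity bounds in the types where `l / φ(d)` exceeds the number of degrees divisible by `d`.
-/

set_option autoImplicit false

namespace Cfsg.Agent.Lib.Chev.Homocyclic

open Cfsg.Lie Cfsg.Agent.Lib Cfsg.Agent.Lib.Chev Polynomial
open Cfsg.Agent.Lib.Chev.CoxTorus (wMat wMat_mul cast_aeval)

variable {D : ChevalleyDatum} {T : Fast}

/-- The general bound. -/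
theorem multBound_of_le (C : Checked D T) {d a : ℕ} (hd : 0 < d) (h : D.rank / d.totient ≤ a) :
    MultBound C d a := fun _ _ _ _ _ s _ _ _ _ hsum =>
  le_trans ((Nat.le_div_iff_mul_le (Nat.totient_pos.2 hd)).2 (hsum ▸ count_mul_totient_le s d)) h

theorem cases_of_top {s : Multiset ℕ} {d l m : ℕ} (hm : 0 < m) (hs : ∀ e ∈ s, e ∣ m)
    (hsum : (s.map Nat.totient).sum = l) (htop : l ≤ s.count d * d.totient) : ∀ e ∈ s, e = d := by
  intro e he
  by_contra hne
  have h1 := sum_split s d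
  have h2 : e.totient ≤ ((s.filter fun e => e ≠ d).map Nat.totient).sum :=
    Multiset.le_sum_of_mem (Multiset.mem_map_of_mem _ (Multiset.mem_filter.2 ⟨he, hne⟩))
  have h3 := Nat.totient_pos.2 (Nat.pos_of_dvd_of_pos (hs e he) hm)
  omega

theorem cases_of_next {s : Multiset ℕ} {d l m : ℕ} (hm : 0 < m) (hs : ∀ e ∈ s, e ∣ m)
    (hsum : (s.map Nat.totient).sum = l) (htop : l = s.count d * d.totient + 1) :
    ∃ e, (e = 1 ∨ e = 2) ∧ e ≠ d ∧ s.count e = 1 ∧ ∀ x ∈ s, x = d ∨ x = e := by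
  have h1 := sum_split s d
  rcases Multiset.empty_or_exists_mem (s.filter fun e => e ≠ d) with h0 | ⟨e, he⟩
  · rw [h0] at h1; simp at h1; omega
  obtain ⟨f, hf⟩ := Multiset.exists_cons_of_mem he
  obtain ⟨hes, hed⟩ := Multiset.mem_filter.1 he
  rw [hf, Multiset.map_cons, Multiset.sum_cons] at h1
  have h3 := Nat.totient_pos.2 (Nat.pos_of_dvd_of_pos (hs e hes) hm)
  have hf0 : f = 0 := by
    rcases Multiset.empty_or_exists_mem f with h0 | ⟨y, hy⟩
    · exact h0
    · have hy' : y ∈ s.filter fun e => e ≠ d := hf ▸ Multiset.mem_cons_of_mem hy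
      have := Nat.totient_pos.2 (Nat.pos_of_dvd_of_pos (hs y (Multiset.mem_filter.1 hy').1) hm)
      have := Multiset.le_sum_of_mem (Multiset.mem_map_of_mem Nat.totient hy)
      omega
  subst hf0
  refine ⟨e, Nat.totient_eq_one_iff.1 (by simp at h1; omega), hed, ?_, fun x hx => ?_⟩
  · have := congrArg (Multiset.count e) hf
    rw [Multiset.count_filter, if_pos hed] at this
    simpa using this
  · by_cases hxd : x = d
    · exact Or.inl hxd
    · refine Or.inr ?_
      have : x ∈ s.filter fun e => e ≠ d := Multiset.mem_filter.2 ⟨hx, hxd⟩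
      rw [hf] at this
      simpa using this

/-- No element is annihilated by `Φ_d` when an invariant covector detects `Φ_d(1)`. -/
theorem not_top (C : Checked D T) {K : Type*} [Field K] {p d m : ℕ} [Fact p.Prime] (hm : 0 < m)
    {n : GL D.Idx K} (hn : n ∈ D.monomialSubgroup K) (hM : wMat C n ^ m = 1) {s : Multiset ℕ}
    (hs : ∀ e ∈ s, e ∣ m) (hchar : (wMat C n).charpoly = (s.map fun e => cyclotomic e ℤ).prod)
    (u : Fin D.rank → ZMod p) (hu : ∀ i < D.rank, ∑ j : Fin D.rank, u j * (D.cartan i (D.simple j) : ZMod p) = 0)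
    (hu0 : u ≠ 0) (hd : (cyclotomic d (ZMod p)).eval 1 ≠ 0) : ¬ ∀ e ∈ s, e = d := by
  intro htop
  have h0 := aeval_eq_zero_of_top hm hM hs hchar (t := {d}) (fun e he => Finset.mem_singleton.2 (htop e he))
  rw [Finset.prod_singleton] at h0
  have h1 := vecMul_aeval (invariant C u hu hn) (cyclotomic d (ZMod p))
  have h2 := cast_aeval (ZMod p) (wMat C n) (cyclotomic d ℤ)
  rw [h0, map_zero, map_cyclotomic] at h2
  rw [h2, Matrix.vecMul_zero] at h1
  exact hu0 ((smul_eq_zero.1 h1.symm).resolve_left hd)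

theorem orderOf_sign {e : ℕ} (he : e = 1 ∨ e = 2) :
    ∃ ε : ℤ, (ε = 1 ∨ ε = -1) ∧ orderOf (ε : ℚ) = e ∧ cyclotomic e ℤ = X - C ε := by
  rcases he with rfl | rfl
  · exact ⟨1, Or.inl rfl, by simp, by simp⟩
  · refine ⟨-1, Or.inr rfl, ?_, by simp⟩
    rw [Int.cast_neg, Int.cast_one, orderOf_neg_one, if_neg]
    rw [ringChar.eq ℚ 0]
    norm_num

/-- The minors vanish for a matrix killed by `Φ_e`, `e ≤ 2` of multiplicity one. -/
theorem minors_of_next {l m e : ℕ} {M N : Matrix (Fin l) (Fin l) ℤ} (hm : 0 < m) {s : Multiset ℕ}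
    (hs : ∀ x ∈ s, x ∣ m) (hchar : M.charpoly = (s.map fun x => cyclotomic x ℤ).prod) (he1 : s.count e = 1)
    {ε : ℤ} (hε : orderOf (ε : ℚ) = e) (hMN : M * N = ε • N) :
    ∀ i i' j j', N i j * N i' j' = N i j' * N i' j :=
  minors_eq_zero (he1 ▸ rootMultiplicity_le (fun x hx =>
    ⟨Nat.cast_ne_zero.2 (Nat.pos_of_dvd_of_pos (hs x hx) hm).ne'⟩) hchar hε) hMN

theorem minors_mul {l : ℕ} {N A : Matrix (Fin l) (Fin l) ℤ}
    (h : ∀ i i' j j', N i j * N i' j' = N i j' * N i' j) :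
    ∀ i i' j j', (N * A) i j * (N * A) i' j' = (N * A) i j' * (N * A) i' j := by
  intro i i' j j'
  rw [Matrix.mul_apply, Matrix.mul_apply, Matrix.mul_apply, Matrix.mul_apply, Fintype.sum_mul_sum, Fintype.sum_mul_sum]
  conv_rhs => rw [Finset.sum_comm]
  refine Finset.sum_congr rfl fun k _ => Finset.sum_congr rfl fun k' _ => ?_
  linear_combination (A k j * A k' j') * h i i' k k'

theorem nonneg_of_diag {k x y d : ℤ} (h1 : -2 ≤ x) (h2 : x + d = k * y * y) (h3 : d = 2) (hy : y ≠ 0) : 0 ≤ k := by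
  subst h3
  nlinarith [mul_self_pos.2 hy]

theorem beta_small {c k β : ℤ} (hc : 0 < c) (hk : 0 < c * k) (h : c * k * β = 2 * c) : β = 1 ∨ β = 2 := by
  have hkβ : k * β = 2 := mul_left_cancel₀ hc.ne' (by linarith)
  have hk1 : 1 ≤ k := pos_of_mul_pos_right hk hc.le
  have hb : 0 < β := by nlinarith
  have hb2 : β ≤ 2 := by nlinarith
  omega

theorem sq_ne_neg_one {x : ℤ} (h : x * x = -1 * 1) : False := by nlinarith [mul_self_nonneg x]

/-- The inverse of the Cartan matrix of E₆, times `3`. -/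
def bMat6 : Matrix (Fin chevE6.rank) (Fin chevE6.rank) ℤ :=
  Matrix.of fun i j => ([[4, 3, 5, 6, 4, 2], [3, 6, 6, 9, 6, 3], [5, 6, 10, 12, 8, 4], [6, 9, 12, 18, 12, 6],
    [4, 6, 8, 12, 10, 5], [2, 3, 4, 6, 5, 4]].getD (i : ℕ) []).getD (j : ℕ) 0

theorem cMat_bMat6 : cMat chevE6 * bMat6 = (3 : ℤ) • 1 := by decide +kernel

theorem laced_E6 : lacedCheck E6.fast = true := by decide +kernel

/-- The covector killed by the Cartan matrix of E₆ modulo `3`. -/
def u6 : Fin chevE6.rank → ℤ := fun j => [1, 0, -1, 0, 1, -1].getD (j : ℕ) 0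

theorem u6_spec : ∀ i < chevE6.rank, ∑ j : Fin chevE6.rank,
    ((u6 j : ℤ) : ZMod 3) * (chevE6.cartan i (chevE6.simple j) : ZMod 3) = 0 := by decide +kernel

theorem quad6 (z : Fin chevE6.rank → ℤ) : ∃ L W : ℤ, Matrix.vecMul z bMat6 ⬝ᵥ z = 4 * L ^ 2 + 6 * W := by
  have h : ∀ z : Fin 6 → ℤ, ∃ L W : ℤ, ∑ j : Fin 6, (∑ i : Fin 6, z i *
      (([[4, 3, 5, 6, 4, 2], [3, 6, 6, 9, 6, 3], [5, 6, 10, 12, 8, 4], [6, 9, 12, 18, 12, 6],
        [4, 6, 8, 12, 10, 5], [2, 3, 4, 6, 5, 4]] : List (List ℤ)).getD (i : ℕ) []).getD (j : ℕ) 0) * z j =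
      4 * L ^ 2 + 6 * W := fun z =>
    ⟨z 0 - z 2 + z 4 - z 5, 1 * z 0 * z 1 + 3 * z 0 * z 2 + 2 * z 0 * z 3 + 2 * z 0 * z 5 + 1 * z 1 * z 1 +
      2 * z 1 * z 2 + 3 * z 1 * z 3 + 2 * z 1 * z 4 + 1 * z 1 * z 5 + 1 * z 2 * z 2 + 4 * z 2 * z 3 +
      4 * z 2 * z 4 + 3 * z 3 * z 3 + 4 * z 3 * z 4 + 2 * z 3 * z 5 + 1 * z 4 * z 4 + 3 * z 4 * z 5, by
      simp [Fin.sum_univ_succ, show Fin.succ (2 : Fin 5) = (3 : Fin 6) from rfl,
        show Fin.succ (3 : Fin 5) = (4 : Fin 6) from rfl, show Fin.succ (4 : Fin 5) = (5 : Fin 6) from rfl]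
      ring⟩
  exact h z

theorem bMat6_mod : ∀ i j : Fin chevE6.rank, (bMat6 i j : ZMod 3) = (u6 i : ZMod 3) * (u6 j : ZMod 3) := by
  decide +kernel

theorem rank_E6 : chevE6.rank = 6 := rfl

theorem u6_ne : (fun j => ((u6 j : ℤ) : ZMod 3)) ≠ 0 := by decide +kernel

theorem ev_three : ((1 : ZMod 3) + 1 ≠ 0) ∧ ((2 : ℕ) • (1 : ZMod 3) ≠ 0) ∧ ((1 : ZMod 3) ^ 2 - 1 + 1 ≠ 0) := by
  decide

theorem u6_zero (h : 0 < chevE6.rank) : ((u6 ⟨0, h⟩ : ℤ) : ZMod 3) = 1 := by decide +revert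

theorem two_ne : (2 : ZMod 3) ≠ 0 := by decide

theorem ev_two : ((1 : ZMod 2) ^ 2 + 1 + 1 ≠ 0) ∧ ((1 : ZMod 2) ^ 2 - 1 + 1 ≠ 0) := by decide

/-- `Φ_2` has multiplicity at most four and `Φ_4`, `Φ_6` at most two in E₆. -/
theorem multBound_E6 {d a : ℕ} (h : d = 2 ∧ a = 4 ∨ d = 4 ∧ a = 2 ∨ d = 6 ∧ a = 2) :
    MultBound E6.checked d a := by
  intro K _ n hn m s hm hM hs hchar hsum
  have : Fact (Nat.Prime 3) := ⟨Nat.prime_three⟩
  have hu0 := u6_ne
  have hle := count_mul_totient_le s d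
  rw [hsum, rank_E6] at hle
  by_contra hlt
  have hev : (cyclotomic d (ZMod 3)).eval 1 ≠ 0 := by
    rcases h with ⟨rfl, -⟩ | ⟨rfl, -⟩ | ⟨rfl, -⟩
    · rw [cyclotomic_two]; simp only [eval_add, eval_X, eval_one]; exact ev_three.1
    · rw [show (4 : ℕ) = 2 ^ (1 + 1) from rfl, cyclotomic_prime_pow_eq_geom_sum Nat.prime_two]
      simp only [eval_finsetSum, eval_pow, eval_X, one_pow, Finset.sum_const, Finset.card_range]
      exact ev_three.2.1
    · rw [cyclotomic_six]; simp only [eval_add, eval_sub, eval_pow, eval_X, eval_one]; exact ev_three.2.2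
  by_cases htop : 6 ≤ s.count d * d.totient
  · exact not_top E6.checked hm hn hM hs hchar _ u6_spec hu0 hev
      (cases_of_top hm hs (hsum.trans rank_E6) htop)
  have hd2 : d = 2 ∧ s.count d = 5 := by
    rcases h with ⟨rfl, rfl⟩ | ⟨rfl, rfl⟩ | ⟨rfl, rfl⟩
    · rw [Nat.totient_two] at hle htop; exact ⟨rfl, by omega⟩
    · rw [show Nat.totient 4 = 2 by decide] at hle htop; omega
    · rw [show Nat.totient 6 = 2 by decide] at hle htop; omega
  obtain ⟨rfl, hc5⟩ := hd2
  obtain ⟨e, he, hed, he1, hall⟩ := cases_of_next hm hs (hsum.trans rank_E6) (by rw [hc5, Nat.totient_two])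
  obtain rfl : e = 1 := by omega
  set M := wMat E6.checked n with hMdef
  have h0 := aeval_eq_zero_of_top hm hM hs hchar (t := {1, 2}) (fun x hx => by
    rcases hall x hx with rfl | rfl <;> simp)
  rw [Finset.prod_pair (by norm_num), cyclotomic_one, cyclotomic_two] at h0
  simp only [map_mul, map_sub, map_add, aeval_X, map_one] at h0
  set N := M + 1 with hN
  have hM2 : M * M = 1 := sub_eq_zero.1 (by rw [← h0, hN, sub_mul, one_mul, mul_add, mul_one]; abel)
  have hMN : M * N = (1 : ℤ) • N := by rw [hN, one_smul, mul_add, hM2, mul_one, add_comm]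
  have hiso : M * cMat chevE6 * M.transpose = cMat chevE6 := isometry E6.checked laced_E6 hn
  have hsymA := cMat_symm E6.checked laced_E6
  have hMA : M * cMat chevE6 = cMat chevE6 * M.transpose := by
    conv_lhs => rw [← hiso]
    rw [← mul_assoc, ← mul_assoc, hM2, one_mul]
  have hSsym : (N * cMat chevE6).transpose = N * cMat chevE6 := by
    rw [hN, add_mul, one_mul, Matrix.transpose_add, Matrix.transpose_mul, hsymA, ← hMA]
  have hN2 : N * N = (2 : ℤ) • N := by
    rw [two_smul, hN, add_mul, mul_add, mul_add, hM2]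
    simp only [mul_one, one_mul]
    abel
  have huN : Matrix.vecMul (fun j => ((u6 j : ℤ) : ZMod 3)) (N.map (Int.cast : ℤ → ZMod 3)) =
      fun j => 2 * ((u6 j : ℤ) : ZMod 3) := by
    have hI := invariant E6.checked _ u6_spec hn
    rw [show N.map (Int.cast : ℤ → ZMod 3) = (Int.castRingHom (ZMod 3)).mapMatrix N from rfl, hN, map_add, map_one,
      Matrix.vecMul_add, Matrix.vecMul_one, show (Int.castRingHom (ZMod 3)).mapMatrix M = M.map Int.cast from rfl, hI]
    funext j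
    simp [two_mul]
  have hN0 : N ≠ 0 := by
    intro h
    rw [h] at huN
    have h2 := congrFun huN ⟨0, by decide⟩
    rw [show ((0 : Matrix (Fin chevE6.rank) (Fin chevE6.rank) ℤ).map (Int.cast : ℤ → ZMod 3)) = 0 by ext; simp,
      Matrix.vecMul_zero, Pi.zero_apply, u6_zero, mul_one] at h2
    exact two_ne h2.symm
  have hS0 : N * cMat chevE6 ≠ 0 := fun h => hN0 (by
    have h2 : (N * cMat chevE6) * bMat6 = 0 := by rw [h, zero_mul]
    rw [mul_assoc, cMat_bMat6, Matrix.mul_smul, mul_one] at h2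
    exact (smul_eq_zero.1 h2).resolve_left (by norm_num))
  obtain ⟨k, z, b, hk, hb, hS⟩ := rank_one hS0 hSsym
    (minors_mul (minors_of_next hm hs hchar he1 (ε := 1) (by simp) hMN))
  obtain ⟨hout, hkb⟩ := outer cMat_bMat6 hS hN2 (fun h => hN0 ((smul_eq_zero.1 h).resolve_left (by norm_num)))
  have hkpos : 0 < k := by
    refine lt_of_le_of_ne ?_ hk.symm
    obtain ⟨i, hi⟩ : ∃ i, z i ≠ 0 := by
      by_contra h
      push Not at h
      simp [h] at hb
    have h1 := diag_ge E6.checked laced_E6 hn i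
    have h2 := hS i i
    rw [hN, add_mul, one_mul, Matrix.add_apply] at h2
    have h3 : cMat chevE6 i i = 2 := (by decide +kernel : ∀ i, cMat chevE6 i i = 2) i
    exact nonneg_of_diag h1 h2 h3 hi
  have h3k : (3 : ℤ) ∣ k := by
    by_contra h3
    have hp : Prime (3 : ℤ) := Int.prime_three
    have hw : ∀ j, (3 : ℤ) ∣ Matrix.vecMul z bMat6 j := by
      intro j
      have h1 : ∀ i, (3 : ℤ) ∣ z i * Matrix.vecMul z bMat6 j := fun i => by
        have : (3 : ℤ) ∣ k * (z i * Matrix.vecMul z bMat6 j) := Dvd.intro (N i j) (by rw [hout i j]; ring)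
        exact (hp.dvd_or_dvd this).resolve_left h3
      rw [← one_mul (Matrix.vecMul z bMat6 j), ← hb, Finset.sum_mul]
      exact Finset.dvd_sum fun i _ => by rw [mul_assoc]; exact (h1 i).mul_left (b i)
    have huz : ((∑ i, u6 i * z i : ℤ) : ZMod 3) = 0 := by
      have h1 := (ZMod.intCast_zmod_eq_zero_iff_dvd _ 3).2 (hw ⟨0, by decide⟩)
      rw [Matrix.vecMul, dotProduct, Int.cast_sum] at h1
      rw [← h1, Int.cast_sum]
      refine Finset.sum_congr rfl fun i _ => ?_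
      rw [Int.cast_mul, Int.cast_mul, bMat6_mod, u6_zero]
      ring
    have hdvd : ∀ j, (3 : ℤ) ∣ ∑ i, u6 i * N i j := by
      intro j
      obtain ⟨x, hx⟩ := (ZMod.intCast_zmod_eq_zero_iff_dvd _ 3).1 huz
      obtain ⟨y, hy⟩ := hw j
      push_cast at hx
      refine Dvd.intro (k * x * y) (mul_left_cancel₀ (show (3 : ℤ) ≠ 0 by norm_num) ?_)
      calc 3 * (3 * (k * x * y)) = k * (∑ i, u6 i * z i) * Matrix.vecMul z bMat6 j := by rw [hx, hy]; ring
        _ = 3 * ∑ i, u6 i * N i j := by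
          rw [Finset.mul_sum, Finset.sum_mul, Finset.mul_sum]
          exact Finset.sum_congr rfl fun i _ => by linear_combination (-u6 i) * hout i j
    have h1 := congrFun huN ⟨0, by decide⟩
    have h2 := (ZMod.intCast_zmod_eq_zero_iff_dvd _ 3).2 (hdvd ⟨0, by decide⟩)
    simp only [Matrix.vecMul, dotProduct, Matrix.map_apply] at h1
    push_cast at h2
    rw [h2, u6_zero, mul_one] at h1
    exact two_ne h1.symm
  obtain ⟨k', rfl⟩ := h3k
  obtain ⟨L, W, hq⟩ := quad6 z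
  have hβ := beta_small (by norm_num) hkpos hkb
  set β := Matrix.vecMul z bMat6 ⬝ᵥ z
  have hcast : ((β : ℤ) : ZMod 6) = 4 * (L : ZMod 6) ^ 2 := by
    rw [hq]; push_cast; rw [show (6 : ZMod 6) = 0 from by decide, zero_mul, add_zero]
  have hnot : ∀ L : ZMod 6, 4 * L ^ 2 ≠ 1 ∧ 4 * L ^ 2 ≠ 2 := by decide
  rcases hβ with hβ | hβ <;> rw [hβ] at hcast
  · exact (hnot _).1 (by rw [← hcast, Int.cast_one])
  · exact (hnot _).2 (by rw [← hcast]; exact Int.cast_ofNat 2)

/-- The inverse of the Cartan matrix of E₇, times `2`. -/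
def bMat7 : Matrix (Fin chevE7.rank) (Fin chevE7.rank) ℤ :=
  Matrix.of fun i j => ([[4, 4, 6, 8, 6, 4, 2], [4, 7, 8, 12, 9, 6, 3], [6, 8, 12, 16, 12, 8, 4],
    [8, 12, 16, 24, 18, 12, 6], [6, 9, 12, 18, 15, 10, 5], [4, 6, 8, 12, 10, 8, 4], [2, 3, 4, 6, 5, 4, 3]].getD
      (i : ℕ) []).getD (j : ℕ) 0

theorem cMat_bMat7 : cMat chevE7 * bMat7 = (2 : ℤ) • 1 := by decide +kernel

theorem laced_E7 : lacedCheck E7.fast = true := by decide +kernel

theorem rank_E7 : chevE7.rank = 7 := rfl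

theorem quad7 (z : Fin chevE7.rank → ℤ) : ∃ L W : ℤ, Matrix.vecMul z bMat7 ⬝ᵥ z = 3 * L ^ 2 + 4 * W := by
  have h : ∀ z : Fin 7 → ℤ, ∃ L W : ℤ, ∑ j : Fin 7, (∑ i : Fin 7, z i *
      (([[4, 4, 6, 8, 6, 4, 2], [4, 7, 8, 12, 9, 6, 3], [6, 8, 12, 16, 12, 8, 4], [8, 12, 16, 24, 18, 12, 6],
        [6, 9, 12, 18, 15, 10, 5], [4, 6, 8, 12, 10, 8, 4], [2, 3, 4, 6, 5, 4, 3]] : List (List ℤ)).getD
          (i : ℕ) []).getD (j : ℕ) 0) * z j =
      3 * L ^ 2 + 4 * W := fun z =>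
    ⟨z 1 + z 4 + z 6, 1 * z 0 * z 0 + 2 * z 0 * z 1 + 3 * z 0 * z 2 + 4 * z 0 * z 3 + 3 * z 0 * z 4 +
      2 * z 0 * z 5 + 1 * z 0 * z 6 + 1 * z 1 * z 1 + 4 * z 1 * z 2 + 6 * z 1 * z 3 + 3 * z 1 * z 4 +
      3 * z 1 * z 5 + 3 * z 2 * z 2 + 8 * z 2 * z 3 + 6 * z 2 * z 4 + 4 * z 2 * z 5 + 2 * z 2 * z 6 +
      6 * z 3 * z 3 + 9 * z 3 * z 4 + 6 * z 3 * z 5 + 3 * z 3 * z 6 + 3 * z 4 * z 4 + 5 * z 4 * z 5 +
      1 * z 4 * z 6 + 2 * z 5 * z 5 + 2 * z 5 * z 6, by
      simp [Fin.sum_univ_succ, show Fin.succ (2 : Fin 6) = (3 : Fin 7) from rfl,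
        show Fin.succ (3 : Fin 6) = (4 : Fin 7) from rfl, show Fin.succ (4 : Fin 6) = (5 : Fin 7) from rfl,
        show Fin.succ (5 : Fin 6) = (6 : Fin 7) from rfl]
      ring⟩
  exact h z

/-- `Φ_4` has multiplicity at most two in E₇. -/
theorem multBound_E7 : MultBound E7.checked 4 2 := by
  intro K _ n hn m s hm hM hs hchar hsum
  have h4 : Nat.totient 4 = 2 := by decide
  have hle := count_mul_totient_le s 4
  rw [hsum, rank_E7, h4] at hle
  by_contra hlt
  obtain ⟨e, he, hed, he1, hall⟩ :=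
    cases_of_next hm hs (hsum.trans rank_E7) (by rw [h4]; omega : 7 = s.count 4 * Nat.totient 4 + 1)
  obtain ⟨ε, hε, hεo, hεc⟩ := orderOf_sign he
  set M := wMat E7.checked n with hMdef
  have h0 := aeval_eq_zero_of_top hm hM hs hchar (t := {e, 4}) (fun x hx => by
    rcases hall x hx with rfl | rfl <;> simp)
  rw [Finset.prod_pair hed, hεc, show (4 : ℕ) = 2 ^ (1 + 1) from rfl,
    cyclotomic_prime_pow_eq_geom_sum Nat.prime_two, Finset.sum_range_succ, Finset.sum_range_succ,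
    Finset.sum_range_zero] at h0
  simp only [map_mul, map_sub, map_add, map_pow, aeval_X, map_one, aeval_C, zero_add, pow_zero, pow_one] at h0
  set N := M * M + 1 with hN
  have hN' : N = 1 + M ^ 2 := by rw [hN, sq, add_comm]
  rw [← hN', sub_mul, sub_eq_zero, ← Algebra.smul_def] at h0
  have hMN : M * N = ε • N := h0
  have hε2 : ε * ε = 1 := by rcases hε with rfl | rfl <;> norm_num
  have hM4 : M * M * (M * M) = 1 := by
    have h1 : M * (M * N) = N := by rw [hMN, Matrix.mul_smul, hMN, smul_smul, hε2, one_smul]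
    rw [← mul_assoc, hN, mul_add, mul_one, add_comm (M * M * (M * M))] at h1
    exact add_left_cancel h1
  have hM2n : wMat E7.checked (n * n) = M * M := wMat_mul E7.checked hn hn
  have hiso : M * cMat chevE7 * M.transpose = cMat chevE7 := isometry E7.checked laced_E7 hn
  have hiso2 : M * M * cMat chevE7 * (M * M).transpose = cMat chevE7 := by
    rw [← hM2n]; exact isometry E7.checked laced_E7 (mul_mem hn hn)
  have hsymA := cMat_symm E7.checked laced_E7
  have hMMA : M * M * cMat chevE7 = cMat chevE7 * (M * M).transpose := by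
    conv_lhs => rw [← hiso2]
    rw [← mul_assoc, ← mul_assoc, hM4, one_mul]
  have hSsym : (N * cMat chevE7).transpose = N * cMat chevE7 := by
    rw [hN, add_mul, one_mul, Matrix.transpose_add, Matrix.transpose_mul, hsymA, ← hMMA]
  have hN2 : N * N = (2 : ℤ) • N := by
    rw [two_smul, hN, add_mul, mul_add, mul_add, hM4]
    simp only [mul_one, one_mul]
    abel
  have hN0 : N ≠ 0 := by
    intro h
    have h1 := congrArg Matrix.det (eq_neg_of_add_eq_zero_left (hN ▸ h : M * M + 1 = 0))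
    rw [Matrix.det_mul, Matrix.det_neg, Matrix.det_one, Fintype.card_fin] at h1
    have h7 : (-1 : ℤ) ^ chevE7.rank = -1 := by rw [rank_E7]; norm_num
    rw [h7] at h1
    exact sq_ne_neg_one h1
  have hS0 : N * cMat chevE7 ≠ 0 := fun h => hN0 (by
    have h2 : (N * cMat chevE7) * bMat7 = 0 := by rw [h, zero_mul]
    rw [mul_assoc, cMat_bMat7, Matrix.mul_smul, mul_one] at h2
    exact (smul_eq_zero.1 h2).resolve_left (by norm_num))
  obtain ⟨k, z, b, hk, hb, hS⟩ := rank_one hS0 hSsym (minors_mul (minors_of_next hm hs hchar he1 hεo hMN))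
  obtain ⟨-, hkb⟩ := outer cMat_bMat7 hS hN2 (fun h => hN0 ((smul_eq_zero.1 h).resolve_left (by norm_num)))
  have heven : ∀ i, (2 : ℤ) ∣ (N * cMat chevE7) i i := by
    intro i
    have h1 : M * M * M * cMat chevE7 = (M * cMat chevE7).transpose := by
      rw [Matrix.transpose_mul, hsymA]
      calc M * M * M * cMat chevE7 = M * M * M * (M * cMat chevE7 * M.transpose) := by rw [hiso]
        _ = (M * M * (M * M)) * cMat chevE7 * M.transpose := by simp only [mul_assoc]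
        _ = cMat chevE7 * M.transpose := by rw [hM4, one_mul]
    have h2 : ε • (N * cMat chevE7) = M * M * M * cMat chevE7 + M * cMat chevE7 := by
      rw [← Matrix.smul_mul, ← hMN, hN, mul_add, mul_one, add_mul, ← mul_assoc M M M]
    have h3 := congrFun (congrFun h2 i) i
    rw [h1, Matrix.smul_apply, Matrix.add_apply, Matrix.transpose_apply, smul_eq_mul] at h3
    refine Dvd.intro (ε * (M * cMat chevE7) i i) ?_
    calc 2 * (ε * (M * cMat chevE7) i i) = ε * ((M * cMat chevE7) i i + (M * cMat chevE7) i i) := by ring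
      _ = (N * cMat chevE7) i i := by rw [← h3, ← mul_assoc, hε2, one_mul]
  have h2k : (2 : ℤ) ∣ k := by
    by_contra h2
    have h1 : ∀ i, (2 : ℤ) ∣ z i := fun i => by
      have := heven i
      rw [hS, mul_assoc] at this
      exact ((Int.prime_two.dvd_or_dvd ((Int.prime_two.dvd_or_dvd this).resolve_left h2)).elim id id)
    have : (2 : ℤ) ∣ 1 := hb ▸ Finset.dvd_sum fun i _ => (h1 i).mul_left (b i)
    norm_num at this
  have hkpos : 0 < k := by
    refine lt_of_le_of_ne ?_ hk.symm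
    obtain ⟨i, hi⟩ : ∃ i, z i ≠ 0 := by
      by_contra h
      push Not at h
      simp [h] at hb
    have h1 := diag_ge E7.checked laced_E7 (mul_mem hn hn) i
    rw [hM2n] at h1
    have h2 := hS i i
    rw [hN, add_mul, one_mul, Matrix.add_apply] at h2
    have h3 : cMat chevE7 i i = 2 := (by decide +kernel : ∀ i, cMat chevE7 i i = 2) i
    exact nonneg_of_diag h1 h2 h3 hi
  obtain ⟨k', rfl⟩ := h2k
  obtain ⟨L, W, hq⟩ := quad7 z
  have hβ := beta_small (by norm_num) hkpos hkb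
  set β := Matrix.vecMul z bMat7 ⬝ᵥ z
  have hcast : ((β : ℤ) : ZMod 4) = 3 * (L : ZMod 4) ^ 2 := by
    rw [hq]; push_cast; rw [show (4 : ZMod 4) = 0 from by decide, zero_mul, add_zero]
  have hnot : ∀ L : ZMod 4, 3 * L ^ 2 ≠ 1 ∧ 3 * L ^ 2 ≠ 2 := by decide
  rcases hβ with hβ | hβ <;> rw [hβ] at hcast
  · exact (hnot _).1 (by rw [← hcast, Int.cast_one])
  · exact (hnot _).2 (by rw [← hcast]; exact Int.cast_ofNat 2)

/-- A covector killed by the Cartan matrix of D₄ modulo `2`. -/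
def u4 : Fin chevD4.rank → ZMod 2 := fun j => [1, 0, 1, 0].getD (j : ℕ) 0

theorem u4_spec : ∀ i < chevD4.rank, ∑ j : Fin chevD4.rank,
    u4 j * (chevD4.cartan i (chevD4.simple j) : ZMod 2) = 0 := by decide +kernel

theorem rank_D4 : chevD4.rank = 4 := rfl

/-- `Φ_3` and `Φ_6` have multiplicity at most one in D₄. -/
theorem multBound_D4 {d : ℕ} (h : d = 3 ∨ d = 6) : MultBound D4.checked d 1 := by
  intro K _ n hn m s hm hM hs hchar hsum
  have : Fact (Nat.Prime 2) := ⟨Nat.prime_two⟩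
  have : Fact (Nat.Prime 3) := ⟨Nat.prime_three⟩
  have hd : d.totient = 2 := by rcases h with rfl | rfl <;> decide
  have hev : (cyclotomic d (ZMod 2)).eval 1 ≠ 0 := by
    rcases h with rfl | rfl
    · rw [cyclotomic_three]; simp only [eval_add, eval_pow, eval_X, eval_one]; exact ev_two.1
    · rw [cyclotomic_six]; simp only [eval_add, eval_sub, eval_pow, eval_X, eval_one]; exact ev_two.2
  have hle := count_mul_totient_le s d
  rw [hsum, rank_D4, hd] at hle
  by_contra hlt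
  exact not_top D4.checked hm hn hM hs hchar u4 u4_spec (by decide +kernel) hev
    (cases_of_top hm hs (hsum.trans rank_D4) (by rw [hd]; omega))

end Cfsg.Agent.Lib.Chev.Homocyclic
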