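import Cfsg.Agent.Lib.Chev.CoxTorus.Weyl
import Cfsg.Agent.Lib.Chev.Homocyclic.Poly

/-!
The Cartan form, invariants of the Weyl group, and rank one symmetric integer matrices.
-/

set_option autoImplicit false

namespace Cfsg.Agent.Lib.Chev.Homocyclic

open Cfsg.Lie Cfsg.Agent.Lib Cfsg.Agent.Lib.Chev Polynomial
open Cfsg.Agent.Lib.Chev.CoxTorus (wMat wMat_mul wMat_eq_one cV cV_sg)

variable {D : ChevalleyDatum} {T : Fast} {F : Type*} [Field F]

/-- The Cartan matrix. -/
def cMat (D : ChevalleyDatum) : Matrix (Fin D.rank) (Fin D.rank) ℤ :=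
  Matrix.of fun i j => D.cartan i (D.simple j)

/-- Simply laced: coroots have the coefficients of roots, and `⟨v, α_i⟩ ≥ -2`. -/
def lacedCheck (T : Fast) : Bool :=
  allBelow T.n fun r => allBelow T.l fun j => decide (T.co r j = T.cf r j) && decide (-2 ≤ T.A j r) &&
    allBelow T.l fun i => decide (T.A i (T.sp j) = T.A j (T.sp i))

theorem laced_spec (C : Checked D T) (h : lacedCheck T = true) {r : ℕ} (hr : r < D.nroots) {j : ℕ}
    (hj : j < D.rank) :
    (D.coroot.getD r #[]).getD j 0 = T.aux.coef r j ∧ -2 ≤ D.cartan j r ∧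
      ∀ i < D.rank, D.cartan i (D.simple j) = D.cartan j (D.simple i) := by
  simp only [lacedCheck, allBelow_iff, Bool.and_eq_true, decide_eq_true_eq] at h
  obtain ⟨⟨h1, h2⟩, h3⟩ := h r (C.tables.nroots ▸ hr) j (C.tables.rank ▸ hj)
  refine ⟨?_, ?_, fun i hi => ?_⟩
  · rw [C.tables.coroot r hr j hj, h1]; rfl
  · rwa [C.tables.cartan j hj r hr]
  · rw [C.tables.cartan i hi _ (C.root.simple_lt j hj), C.tables.cartan j hj _ (C.root.simple_lt i hi),
      C.tables.simple j hj, C.tables.simple i hi]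
    exact h3 i (C.tables.rank ▸ hi)

theorem pair_bilin (C : Checked D T) (h : lacedCheck T = true) {r s : ℕ} (hr : r < D.nroots) (hs : s < D.nroots) :
    pair D r s = Matrix.vecMul (cV T D r) (cMat D) ⬝ᵥ cV T D s := by
  rw [pair, ← Fin.sum_univ_eq_sum_range (fun j => (D.coroot.getD r #[]).getD j 0 * D.cartan j s)]
  simp only [Matrix.vecMul, dotProduct, cMat, Matrix.of_apply, cV, Finset.sum_mul]
  rw [Finset.sum_comm]
  refine Finset.sum_congr rfl fun j _ => ?_
  rw [(laced_spec C h hr j.2).1, C.root.cartan_lin j j.2 s hs,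
    ← Fin.sum_univ_eq_sum_range (fun k => T.aux.coef s k * D.cartan j (D.simple k)), Finset.mul_sum]
  exact Finset.sum_congr rfl fun k _ => by ring

/-- Monomial elements preserve the Cartan form. -/
theorem isometry (C : Checked D T) (h : lacedCheck T = true) {n : GL D.Idx F} (hn : n ∈ D.monomialSubgroup F) :
    wMat C n * cMat D * (wMat C n).transpose = cMat D := by
  ext i j
  have hi := C.root.simple_lt i i.2
  have hj := C.root.simple_lt j j.2
  have h1 := C.pair_sg hn hi hj
  rw [C.root.pair_simple i.2, pair_bilin C h (C.sg_lt hn hi) (C.sg_lt hn hj)] at h1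
  rw [Matrix.mul_apply_eq_vecMul, Matrix.mul_apply_eq_vecMul, Matrix.vecMul_transpose]
  exact ((dotProduct_comm _ _).trans h1 : _)

theorem diag_ge (C : Checked D T) (h : lacedCheck T = true) {n : GL D.Idx F} (hn : n ∈ D.monomialSubgroup F)
    (i : Fin D.rank) : -2 ≤ (wMat C n * cMat D) i i := by
  have hs := C.sg_lt hn (C.root.simple_lt i i.2)
  have h1 := (laced_spec C h hs i.2).2.1
  rw [C.root.cartan_lin i i.2 _ hs,
    ← Fin.sum_univ_eq_sum_range (fun k => T.aux.coef (C.sg n (D.simple i)) k * D.cartan i (D.simple k))] at h1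
  refine h1.trans (le_of_eq ?_)
  rw [Matrix.mul_apply]
  exact Finset.sum_congr rfl fun k _ => by
    rw [cMat, Matrix.of_apply, (laced_spec C h (C.root.simple_lt k k.2) i.2).2.2 k k.2]; rfl

theorem cMat_symm (C : Checked D T) (h : lacedCheck T = true) : (cMat D).transpose = cMat D := by
  ext i j
  exact (laced_spec C h (C.root.simple_lt i i.2) i.2).2.2 j j.2

/-- A covector killed by the Cartan matrix modulo `p` is invariant. -/
theorem invariant (C : Checked D T) {R : Type*} [CommRing R] (u : Fin D.rank → R)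
    (hu : ∀ i < D.rank, ∑ j : Fin D.rank, u j * (D.cartan i (D.simple j) : R) = 0) {n : GL D.Idx F}
    (hn : n ∈ D.monomialSubgroup F) : Matrix.vecMul u ((wMat C n).map (Int.cast : ℤ → R)) = u := by
  let ι : Matrix (Fin D.rank) (Fin D.rank) ℤ →+* Matrix (Fin D.rank) (Fin D.rank) R :=
    (Int.castRingHom R).mapMatrix
  show Matrix.vecMul u (ι (wMat C n)) = u
  rw [C.monomial_eq] at hn
  induction hn using Subgroup.closure_induction with
  | mem x hx =>
    rcases hx with hx | ⟨i, hi, rfl⟩
    · rw [wMat_eq_one C fun v hv => C.sg_diag hx hv, map_one, Matrix.vecMul_one]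
    · funext k
      have : ∀ j : Fin D.rank, ι (wMat C (C.ng (F := F) i)) j k =
          (if j = k then 1 else 0) - (D.cartan i (D.simple j) : R) * (if i = (k : ℕ) then 1 else 0) := by
        intro j
        show ((T.aux.coef (C.sg (C.ng (F := F) i) (D.simple j)) k : ℤ) : R) = _
        rw [C.sg_ng hi (C.root.simple_lt j j.2), C.root.coef_refl hi (C.root.simple_lt j j.2) k.2,
          C.root.coef_simple j j.2 k k.2]
        simp only [Fin.ext_iff, eq_comm (a := (k : ℕ))]
        push_cast
        simp only [Int.cast_ite, Int.cast_one, Int.cast_zero]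
      simp only [Matrix.vecMul, dotProduct, this, mul_sub, Finset.sum_sub_distrib]
      simp only [mul_ite, mul_one, mul_zero, Finset.sum_ite_eq', Finset.mem_univ, if_true]
      by_cases hik : i = (k : ℕ)
      · simp only [hik, if_true]
        rw [hu k k.2, sub_zero]
      · simp [hik]
  | one => rw [wMat_eq_one C fun v hv => C.sg_one hv, map_one, Matrix.vecMul_one]
  | mul x y hx hy ihx ihy =>
    rw [← C.monomial_eq] at hx hy
    rw [wMat_mul C hx hy, map_mul, ← Matrix.vecMul_vecMul, ihy, ihx]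
  | inv x hx ih =>
    rw [← C.monomial_eq] at hx
    conv_lhs => rw [← ih]
    rw [Matrix.vecMul_vecMul, ← map_mul, ← wMat_mul C (inv_mem hx) hx, inv_mul_cancel,
      wMat_eq_one C fun v hv => C.sg_one hv, map_one, Matrix.vecMul_one]

theorem vecMul_aeval {l : ℕ} {R : Type*} [CommRing R] {A : Matrix (Fin l) (Fin l) R} {u : Fin l → R}
    (h : Matrix.vecMul u A = u) (f : R[X]) : Matrix.vecMul u (aeval A f) = f.eval 1 • u := by
  induction f using Polynomial.induction_on' with
  | add f g hf hg => rw [map_add, Matrix.vecMul_add, hf, hg, eval_add, add_smul]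
  | monomial n c =>
    have hp : ∀ n : ℕ, Matrix.vecMul u (A ^ n) = u := by
      intro n
      induction n with
      | zero => simp
      | succ n ih => rw [pow_succ, ← Matrix.vecMul_vecMul, ih, h]
    rw [aeval_monomial, eval_monomial, ← Algebra.smul_def, Matrix.vecMul_smul, hp, one_pow, mul_one]

/-- A rank one symmetric integer matrix is a multiple of `z zᵀ` with `z` primitive. -/
theorem rank_one {l : ℕ} {S : Matrix (Fin l) (Fin l) ℤ} (hne : S ≠ 0) (hsym : S.transpose = S)
    (hminor : ∀ i i' j j', S i j * S i' j' = S i j' * S i' j) :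
    ∃ (k : ℤ) (z b : Fin l → ℤ), k ≠ 0 ∧ ∑ j, b j * z j = 1 ∧ ∀ i j, S i j = k * z i * z j := by
  classical
  obtain ⟨i₀, j₀, h0⟩ : ∃ i j, S i j ≠ 0 := by
    by_contra h
    push Not at h
    exact hne (Matrix.ext h)
  obtain ⟨g, hg⟩ := IsPrincipalIdealRing.principal (Ideal.span (Set.range (S i₀)))
  rw [Ideal.submodule_span_eq] at hg
  have hmem : ∀ j, g ∣ S i₀ j := fun j => by
    rw [← Ideal.mem_span_singleton, ← hg]; exact Ideal.subset_span ⟨j, rfl⟩
  choose z hz using hmem
  have hg0 : g ≠ 0 := fun h => h0 (by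
    have : g ∣ S i₀ j₀ := Dvd.intro _ (hz j₀).symm
    have h1 : S i₀ = 0 := funext fun j => by rw [hz j, h, zero_mul]; rfl
    have h2 := hminor i₀ i₀ j₀ j₀
    by_contra hc
    have h3 : S j₀ i₀ = S i₀ j₀ := congrFun (congrFun hsym i₀) j₀
    have h4 := hminor i₀ j₀ j₀ i₀
    have h5 : S i₀ i₀ = 0 := congrFun h1 i₀
    rw [h5, h3, zero_mul] at h4
    exact hc (mul_self_eq_zero.1 h4))
  obtain ⟨b, hb⟩ : ∃ b : Fin l → ℤ, ∑ j, b j * S i₀ j = g := by
    have : g ∈ Ideal.span (Set.range (S i₀)) := by rw [hg]; exact Ideal.mem_span_singleton_self g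
    obtain ⟨b, hb⟩ := Ideal.mem_span_range_iff_exists_fun.1 this
    exact ⟨b, hb⟩
  have hb1 : ∑ j, b j * z j = 1 := by
    apply mul_left_cancel₀ hg0
    rw [Finset.mul_sum, mul_one]
    exact (Finset.sum_congr rfl fun j _ => by rw [hz j]; ring).trans hb
  set μ : Fin l → ℤ := fun k => ∑ j, b j * S k j with hμ
  have hS : ∀ i j, S i j = μ i * z j := by
    intro i j
    have h1 : ∀ j', S i j * z j' = S i j' * z j := fun j' => by
      apply mul_left_cancel₀ hg0
      have := hminor i i₀ j j'
      rw [hz j, hz j'] at this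
      linear_combination this
    rw [hμ, Finset.sum_mul, ← mul_one (S i j), ← hb1, Finset.mul_sum]
    exact Finset.sum_congr rfl fun j' _ => by rw [mul_assoc (b j'), ← h1 j']; ring
  have hsymm : ∀ i j, μ i * z j = μ j * z i := fun i j => by
    rw [← hS, ← hS]; exact congrFun (congrFun hsym j) i
  have hμk : ∀ i, μ i = (∑ j, b j * μ j) * z i := fun i => by
    calc μ i = ∑ j, μ i * (b j * z j) := by rw [← Finset.mul_sum, hb1, mul_one]
      _ = ∑ j, b j * μ j * z i := Finset.sum_congr rfl fun j _ => by linear_combination b j * hsymm i j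
      _ = _ := (Finset.sum_mul _ _ _).symm
  refine ⟨∑ j, b j * μ j, z, b, fun hk => h0 ?_, hb1, fun i j => ?_⟩
  · rw [hS, hμk, hk, zero_mul, zero_mul]
  · rw [hS, hμk i]

/-- Outer product shape of `c N` from `N A = k z zᵀ` and `A B = c`. -/
theorem outer {l : ℕ} {N A B : Matrix (Fin l) (Fin l) ℤ} {c k : ℤ} (hAB : A * B = c • 1) {z : Fin l → ℤ}
    (hS : ∀ i j, (N * A) i j = k * z i * z j) (hN2 : N * N = (2 : ℤ) • N) (hN0 : c • N ≠ 0) :
    (∀ i j, c * N i j = k * z i * Matrix.vecMul z B j) ∧ k * (Matrix.vecMul z B ⬝ᵥ z) = 2 * c := by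
  have h1 : ∀ i j, c * N i j = k * z i * Matrix.vecMul z B j := by
    intro i j
    have : ((N * A) * B) i j = c * N i j := by
      rw [mul_assoc, hAB, Matrix.mul_smul, mul_one, Matrix.smul_apply, smul_eq_mul]
    rw [← this, Matrix.mul_apply, Matrix.vecMul, dotProduct, Finset.mul_sum]
    exact Finset.sum_congr rfl fun m _ => by rw [hS]; ring
  refine ⟨h1, ?_⟩
  obtain ⟨i, j, hij⟩ : ∃ i j, c * N i j ≠ 0 := by
    by_contra h
    push Not at h
    exact hN0 (Matrix.ext fun i j => by simpa using h i j)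
  have h2 : ((c • N) * (c • N)) i j = (2 * c) * (c * N i j) := by
    rw [Matrix.smul_mul, Matrix.mul_smul, hN2]
    simp only [Matrix.smul_apply, smul_eq_mul]
    ring
  have h3 : ((c • N) * (c • N)) i j = k * (Matrix.vecMul z B ⬝ᵥ z) * (c * N i j) := by
    rw [Matrix.mul_apply, dotProduct, Finset.mul_sum, Finset.sum_mul]
    refine Finset.sum_congr rfl fun m _ => ?_
    simp only [Matrix.smul_apply, smul_eq_mul]
    rw [h1 i m, h1 m j, h1 i j]; ring
  exact mul_right_cancel₀ hij (h3.symm.trans h2)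

end Cfsg.Agent.Lib.Chev.Homocyclic
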